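import Mathlib

/-!
# The field with four elements, concretely, and `SL₂` over it
-/

set_option autoImplicit false

namespace Cfsg.Agent.Lib.Crit5.F4

/-- The field with four elements. -/
inductive FF : Type
  | z | o | w | v
  deriving DecidableEq

namespace FF

instance : Fintype FF := ⟨⟨[z, o, w, v], by decide⟩, by intro x; cases x <;> decide⟩

/-- Addition. -/
def add : FF → FF → FF
  | z, a => a
  | a, z => a
  | o, o => z
  | o, w => v
  | o, v => w
  | w, o => v
  | w, w => z
  | w, v => o
  | v, o => w
  | v, w => o
  | v, v => z

/-- Multiplication. -/
def mul : FF → FF → FF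
  | z, _ => z
  | _, z => z
  | o, a => a
  | a, o => a
  | w, w => v
  | w, v => o
  | v, w => o
  | v, v => w

/-- Inversion. -/
def inv : FF → FF
  | z => z
  | o => o
  | w => v
  | v => w

instance : Add FF := ⟨add⟩
instance : Mul FF := ⟨mul⟩
instance : Zero FF := ⟨z⟩
instance : One FF := ⟨o⟩
instance : Neg FF := ⟨id⟩
instance : Inv FF := ⟨inv⟩

instance : CommRing FF :=
  { add_assoc := by decide
    zero_add := by decide
    add_zero := by decide
    nsmul := nsmulRec
    zsmul := zsmulRec
    neg_add_cancel := by decide
    add_comm := by decide
    mul_assoc := by decide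
    one_mul := by decide
    mul_one := by decide
    left_distrib := by decide
    right_distrib := by decide
    zero_mul := by decide
    mul_zero := by decide
    mul_comm := by decide }

noncomputable instance : Field FF :=
  { (inferInstance : CommRing FF) with
    exists_pair_ne := ⟨z, o, by decide⟩
    mul_inv_cancel := by decide
    inv_zero := rfl
    nnqsmul := _
    qsmul := _ }

theorem card_eq : Fintype.card FF = 4 := by decide

end FF

open FF

/-- `SL₂` over the field. -/
abbrev SL2 := Matrix.SpecialLinearGroup (Fin 2) FF

/-- The vectors. -/
abbrev Vec := Fin 2 → FF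

set_option maxRecDepth 100000 in
theorem card_sl2 : Fintype.card SL2 = 60 := by decide +kernel

end Cfsg.Agent.Lib.Crit5.F4
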