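import Cfsg.Agent.Lib.Crit5.F4

/-!
# Computations in `SL₂` over the field with four elements
-/

set_option autoImplicit false

namespace Cfsg.Agent.Lib.Crit5.SL2

open Cfsg.Agent.Lib.Crit5.F4 FF

/-- The action on vectors. -/
abbrev act (M : SL2) (u : Vec) : Vec := (M : Matrix (Fin 2) (Fin 2) FF).mulVec u

/-- The first basis vector. -/
def e₁ : Vec := ![1, 0]

set_option maxRecDepth 100000 in
theorem exists_g : ∀ u : Vec, u ≠ 0 → ∃ g : SL2, act g e₁ = u := by decide +kernel

/-- The property of pairs of vectors. -/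
def TripleP (u v : Vec) : Prop :=
  ∃ s : SL2, s ^ 3 = 1 ∧ s ≠ 1 ∧ act s u = v ∧ act s v = u + v

instance (u v : Vec) : Decidable (TripleP u v) := by
  unfold TripleP
  infer_instance

/-- The property of a vector. -/
def TripleQ (u : Vec) : Prop := ∀ v : Vec, v ≠ 0 → u ≠ v → TripleP u v

instance (u : Vec) : Decidable (TripleQ u) := by
  unfold TripleQ
  infer_instance

set_option maxRecDepth 100000 in
theorem tripleQ : ∀ u : Vec, u ≠ 0 → TripleQ u := by decide +kernel

theorem triple (u v : Vec) (hu : u ≠ 0) (hv : v ≠ 0) (huv : u ≠ v) :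
    ∃ s : SL2, s ^ 3 = 1 ∧ s ≠ 1 ∧ act s u = v ∧ act s v = u + v := tripleQ u hu v hv huv

set_option maxRecDepth 100000 in
theorem stab_sq : ∀ g : SL2, act g e₁ = e₁ → g ^ 2 = 1 := by decide +kernel

set_option maxRecDepth 100000 in
theorem orders : ∀ g : SL2, g ^ 2 = 1 ∨ g ^ 3 = 1 ∨ g ^ 5 = 1 := by decide +kernel

set_option maxRecDepth 100000 in
theorem no_four : ∀ g : SL2, g ^ 4 = 1 → g ^ 2 = 1 := by decide +kernel

/-- The transvection. -/
def aa : SL2 := ⟨!![1, 1; 0, 1], by decide +kernel⟩

/-- The diagonal element. -/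
def ss : SL2 := ⟨!![w, 0; 0, v], by decide +kernel⟩

/-- An element of order five. -/
def yy : SL2 := ⟨!![0, v; w, w], by decide +kernel⟩

set_option maxRecDepth 100000 in
theorem aa_sq : aa * aa = 1 := by decide +kernel

set_option maxRecDepth 100000 in
theorem aa_ne : aa ≠ 1 := by decide +kernel

set_option maxRecDepth 100000 in
theorem ss_cube : ss ^ 3 = 1 := by decide +kernel

set_option maxRecDepth 100000 in
theorem ss_ne : ss ≠ 1 := by decide +kernel

set_option maxRecDepth 100000 in
theorem yy_five : yy ^ 5 = 1 := by decide +kernel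

set_option maxRecDepth 100000 in
theorem yy_ne : yy ≠ 1 := by decide +kernel

set_option maxRecDepth 100000 in
theorem aa_yy : aa * yy * aa⁻¹ = yy⁻¹ := by decide +kernel

end Cfsg.Agent.Lib.Crit5.SL2
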