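import Cfsg.Agent.Lib.Crit5.SL2

/-!
# More computations in `SL₂` over the field with four elements: the stabilizer and the Borel group
-/

set_option autoImplicit false

namespace Cfsg.Agent.Lib.Crit5.SL2b

open Cfsg.Agent.Lib.Crit5.F4 FF Cfsg.Agent.Lib.Crit5.SL2

set_option maxRecDepth 100000 in
theorem T0_mul : ∀ a b : SL2, act a e₁ = e₁ → act b e₁ = e₁ → act (a * b) e₁ = e₁ := by
  decide +kernel

set_option maxRecDepth 100000 in
theorem T0_inv : ∀ a : SL2, act a e₁ = e₁ → act a⁻¹ e₁ = e₁ := by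
  decide +kernel

set_option maxRecDepth 100000 in
theorem T0_one : act (1 : SL2) e₁ = e₁ := by decide +kernel

/-- The stabilizer of the first vector. -/
def T0 : Subgroup SL2 where
  carrier := {t | act t e₁ = e₁}
  mul_mem' := fun {a b} ha hb => T0_mul a b ha hb
  one_mem' := T0_one
  inv_mem' := fun {a} ha => T0_inv a ha

theorem mem_T0 {t : SL2} : t ∈ T0 ↔ act t e₁ = e₁ := Iff.rfl

set_option maxRecDepth 100000 in
theorem Bo_mul : ∀ a b : SL2, a.1 1 0 = 0 → b.1 1 0 = 0 → (a * b).1 1 0 = 0 := by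
  decide +kernel

set_option maxRecDepth 100000 in
theorem Bo_inv : ∀ a : SL2, a.1 1 0 = 0 → (a⁻¹).1 1 0 = 0 := by
  decide +kernel

set_option maxRecDepth 100000 in
theorem Bo_one : (1 : SL2).1 1 0 = 0 := by decide +kernel

/-- The upper triangular group. -/
def Bo : Subgroup SL2 where
  carrier := {t | t.1 1 0 = 0}
  mul_mem' := fun {a b} ha hb => Bo_mul a b ha hb
  one_mem' := Bo_one
  inv_mem' := fun {a} ha => Bo_inv a ha

theorem mem_Bo {t : SL2} : t ∈ Bo ↔ t.1 1 0 = 0 := Iff.rfl

set_option maxRecDepth 100000 in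
theorem card_bo_aux : Fintype.card {t : SL2 // t.1 1 0 = 0} = 12 := by decide +kernel

theorem card_bo : Nat.card Bo = 12 := by
  have h : Nat.card Bo = Nat.card {t : SL2 // t.1 1 0 = 0} := rfl
  rw [h, Nat.card_eq_fintype_card, card_bo_aux]

theorem index_bo : Bo.index = 5 := by
  have h := Subgroup.card_mul_index Bo
  rw [card_bo, Nat.card_eq_fintype_card, card_sl2] at h
  omega

set_option maxRecDepth 100000 in
theorem ss_T0 : ∀ t : SL2, act t e₁ = e₁ → act (ss * t * ss⁻¹) e₁ = e₁ := by decide +kernel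

set_option maxRecDepth 100000 in
theorem aa_T0 : act aa e₁ = e₁ := by decide +kernel

set_option maxRecDepth 100000 in
theorem T0_cases : ∀ t : SL2, act t e₁ = e₁ →
    t = 1 ∨ t = aa ∨ t = ss * aa * ss⁻¹ ∨ t = ss * (ss * aa * ss⁻¹) * ss⁻¹ := by decide +kernel

set_option maxRecDepth 100000 in
theorem Bo_cases : ∀ b : SL2, b.1 1 0 = 0 →
    act b e₁ = e₁ ∨ act (b * ss⁻¹) e₁ = e₁ ∨ act (b * ss) e₁ = e₁ := by decide +kernel

set_option maxRecDepth 100000 in
theorem T0_le_Bo : ∀ t : SL2, act t e₁ = e₁ → t.1 1 0 = 0 := by decide +kernel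

set_option maxRecDepth 100000 in
theorem ss_Bo : ss.1 1 0 = 0 := by decide +kernel

set_option maxRecDepth 100000 in
theorem T0_ss1 : ∀ t : SL2, act t e₁ = e₁ → t * ss ≠ 1 := by decide +kernel

set_option maxRecDepth 100000 in
theorem T0_ss2 : ∀ t : SL2, act t e₁ = e₁ → t * (ss * ss) ≠ 1 := by decide +kernel

set_option maxRecDepth 100000 in
theorem aa_conj_ne : ss * aa * ss⁻¹ ≠ 1 := by decide +kernel

set_option maxRecDepth 100000 in
theorem aa_conj2_ne : ss * (ss * aa * ss⁻¹) * ss⁻¹ ≠ 1 := by decide +kernel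

set_option maxRecDepth 100000 in
theorem aa_ne_conj : aa ≠ ss * aa * ss⁻¹ := by decide +kernel

set_option maxRecDepth 100000 in
theorem ss_inv_eq : ss⁻¹ = ss * ss := by decide +kernel

set_option maxRecDepth 100000 in
theorem stab_mem (t : SL2) (ht : act t e₁ = e₁) : t * t = 1 := by
  have := stab_sq t ht
  rwa [pow_two] at this

theorem orderOf_ss : orderOf ss = 3 := orderOf_eq_prime ss_cube ss_ne

theorem orderOf_yy : orderOf yy = 5 :=
  haveI : Fact (Nat.Prime 5) := ⟨by norm_num⟩
  orderOf_eq_prime yy_five yy_ne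

set_option maxRecDepth 100000 in
theorem act_mul (a b : SL2) (u : Vec) : act (a * b) u = act a (act b u) := by
  simp only [act, Matrix.SpecialLinearGroup.coe_mul, Matrix.mulVec_mulVec]

theorem act_one (u : Vec) : act (1 : SL2) u = u := by
  simp only [act, Matrix.SpecialLinearGroup.coe_one, Matrix.one_mulVec]

theorem act_add (a : SL2) (u v : Vec) : act a (u + v) = act a u + act a v := by
  simp only [act, Matrix.mulVec_add]

theorem act_zero (a : SL2) : act a (0 : Vec) = 0 := by
  simp only [act, Matrix.mulVec_zero]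

set_option maxRecDepth 100000 in
theorem vec_add_self : ∀ u : Vec, u + u = 0 := by decide +kernel

set_option maxRecDepth 100000 in
theorem e₁_ne : e₁ ≠ 0 := by decide +kernel

set_option maxRecDepth 100000 in
theorem act_ne_zero : ∀ (g : SL2) (u : Vec), u ≠ 0 → act g u ≠ 0 := by decide +kernel

end Cfsg.Agent.Lib.Crit5.SL2b
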