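import Cfsg.Agent.Lib.Crit5.SL2b
import Cfsg.Agent.Lib.Ord5.E1
import Cfsg.Agent.S0051

/-!
# The extension of `SL₂(4)` by an elementary abelian `2`-group with small element orders splits
-/

set_option autoImplicit false

namespace Cfsg.Agent.Lib.Crit5.Split

open Cfsg.Agent.Lib.Crit5.F4 FF Cfsg.Agent.Lib.Crit5.SL2 Cfsg.Agent.Lib.Crit5.SL2b
open Cfsg.Agent.Lib.Ord5.Basic Cfsg.Agent.Lib.Ord5.E1

universe u

variable {G : Type u} [Group G]

/-- A four-group from two commuting involutions. -/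
theorem klein (a b : G) (ha : a * a = 1) (hb : b * b = 1) (hab : a * b = b * a) :
    ∃ E : Subgroup G, ∀ x, x ∈ E ↔ x = 1 ∨ x = a ∨ x = b ∨ x = a * b := by
  have h3 : b * a = a * b := hab.symm
  have h4 : a * (a * b) = b := by rw [← mul_assoc, ha, one_mul]
  have h5 : b * (a * b) = a := by rw [← mul_assoc, h3, mul_assoc, hb, mul_one]
  have h6 : a * b * a = b := by rw [mul_assoc, h3, ← mul_assoc, ha, one_mul]
  have h7 : a * b * b = a := by rw [mul_assoc, hb, mul_one]
  have h8 : a * b * (a * b) = 1 := by rw [← mul_assoc, h6, hb]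
  have hia : a⁻¹ = a := inv_eq_of_mul_eq_one_left ha
  have hib : b⁻¹ = b := inv_eq_of_mul_eq_one_left hb
  have hic : (a * b)⁻¹ = a * b := inv_eq_of_mul_eq_one_left h8
  refine ⟨{ carrier := {x | x = 1 ∨ x = a ∨ x = b ∨ x = a * b}
            one_mem' := Or.inl rfl
            mul_mem' := ?_
            inv_mem' := ?_ }, fun x => Iff.rfl⟩
  · intro x y hx hy
    change x = 1 ∨ x = a ∨ x = b ∨ x = a * b at hx
    change y = 1 ∨ y = a ∨ y = b ∨ y = a * b at hy
    change x * y = 1 ∨ x * y = a ∨ x * y = b ∨ x * y = a * b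
    rcases hx with hx | hx | hx | hx <;> rcases hy with hy | hy | hy | hy <;> rw [hx, hy] <;>
      simp only [one_mul, mul_one, ha, hb, h3, h4, h5, h6, h7, h8, true_or, or_true]
  · intro x hx
    change x = 1 ∨ x = a ∨ x = b ∨ x = a * b at hx
    change x⁻¹ = 1 ∨ x⁻¹ = a ∨ x⁻¹ = b ∨ x⁻¹ = a * b
    rcases hx with hx | hx | hx | hx <;> rw [hx] <;>
      simp only [inv_one, hia, hib, hic, true_or, or_true]

/-- The semidirect product inside a group. -/
theorem semi (E : Subgroup G) (s : G) (hs3 : s ^ 3 = 1) (hs : ∀ x ∈ E, s * x * s⁻¹ ∈ E) :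
    ∃ A : Subgroup G, ∀ x, x ∈ A ↔ ∃ e ∈ E, ∃ i : ℕ, x = e * s ^ i := by
  have hp : ∀ (i : ℕ), ∀ x ∈ E, s ^ i * x * (s ^ i)⁻¹ ∈ E := by
    intro i
    induction i with
    | zero => intro x hx; simpa using hx
    | succ n ih =>
      intro x hx
      have := hs _ (ih x hx)
      rwa [show s ^ (n + 1) * x * (s ^ (n + 1))⁻¹ = s * (s ^ n * x * (s ^ n)⁻¹) * s⁻¹ by
        rw [pow_succ']; group]
  refine ⟨{ carrier := {x | ∃ e ∈ E, ∃ i : ℕ, x = e * s ^ i}
            one_mem' := ⟨1, E.one_mem, 0, by simp⟩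
            mul_mem' := ?_
            inv_mem' := ?_ }, fun x => Iff.rfl⟩
  · rintro _ _ ⟨e, he, i, rfl⟩ ⟨f, hf, j, rfl⟩
    refine ⟨e * (s ^ i * f * (s ^ i)⁻¹), E.mul_mem he (hp i f hf), i + j, ?_⟩
    rw [pow_add]
    group
  · rintro _ ⟨e, he, i, rfl⟩
    refine ⟨s ^ (2 * i) * e⁻¹ * (s ^ (2 * i))⁻¹, hp _ _ (E.inv_mem he), 2 * i, ?_⟩
    have h : (s ^ i)⁻¹ = s ^ (2 * i) := by
      apply inv_eq_of_mul_eq_one_left
      rw [← pow_add, show 2 * i + i = 3 * i by ring, pow_mul, hs3, one_pow]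
    rw [mul_inv_rev, h]
    group

/-- Conjugation by an element of order three or five is fixed point free on a normal subgroup of
exponent two. -/
theorem fpf (hS : IsO G) (W : Subgroup G) [W.Normal] (hW : ∀ w ∈ W, w * w = 1) {y : G} {r : ℕ}
    (hr : r = 3 ∨ r = 5) (hy : orderOf y = r) : MonoidHom.FixedPointFree (cj W y) := by
  intro n hn
  have h1 := congrArg Subtype.val hn
  rw [cj_coe] at h1
  refine Subtype.ext ?_
  have hc : Commute y (n : G) := by
    change y * n = n * y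
    calc y * n = y * n * y⁻¹ * y := by group
      _ = n * y := by rw [h1]
  have hco : Nat.Coprime (orderOf y) (orderOf (n : G)) := by
    rw [hy]; exact orderOf_dvd_two_coprime hr (hW n n.2)
  rcases hS.eq_one_of_coprime hc hco with h | h
  · exfalso
    rw [h, orderOf_one] at hy
    rcases hr with rfl | rfl <;> omega
  · exact h

/-- The norm identity for an automorphism of order three. -/
theorem norm3 [Finite G] (Q : Subgroup G) (s : G) (hs3 : s * s * s = 1)
    (hs : ∀ x ∈ Q, s * x * s⁻¹ ∈ Q) (hfix : ∀ x ∈ Q, s * x = x * s → x = 1) (x : G) (hx : x ∈ Q) :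
    x * (s * x * s⁻¹) * (s * (s * x * s⁻¹) * s⁻¹) = 1 := by
  let φ : Q →* Q := MonoidHom.mk' (fun q => ⟨s * q * s⁻¹, hs q q.2⟩) (by
    intro a b
    apply Subtype.ext
    change s * (a * b : G) * s⁻¹ = s * a * s⁻¹ * (s * b * s⁻¹)
    group)
  have hφ : MonoidHom.FixedPointFree φ := by
    intro q hq
    have h1 : s * (q : G) * s⁻¹ = q := congrArg Subtype.val hq
    refine Subtype.ext (hfix q q.2 ?_)
    calc s * (q : G) = s * q * s⁻¹ * s := by group
      _ = q * s := by rw [h1]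
  have h3 : φ^[3] = _root_.id := by
    funext q
    apply Subtype.ext
    change s * (s * (s * (q : G) * s⁻¹) * s⁻¹) * s⁻¹ = q
    calc s * (s * (s * (q : G) * s⁻¹) * s⁻¹) * s⁻¹
        = (s * s * s) * q * (s * s * s)⁻¹ := by group
      _ = q := by rw [hs3]; group
  have := hφ.prod_pow_eq_one h3 ⟨x, hx⟩
  have h4 := congrArg Subtype.val this
  simpa [List.range_succ, φ, mul_assoc] using h4

/-- Existence of an involution above the transvection. -/
theorem exists_invol [Finite G] (hS : IsO G) (π : G →* SL2) (hπ : Function.Surjective π)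
    (hN : ∀ n, π n = 1 → n * n = 1) : ∃ a : G, π a = aa ∧ a * a = 1 := by
  obtain ⟨y, hy⟩ := hπ yy
  obtain ⟨a', ha'⟩ := hπ aa
  have hy5 : orderOf y = 5 := hS.orderOf_lift π (Or.inr rfl) (by rw [hy]; exact orderOf_yy)
  have hW : ∀ w ∈ π.ker, w * w = 1 := fun w hw => hN w hw
  have hn : a' * y * a'⁻¹ * y ∈ π.ker := by
    rw [MonoidHom.mem_ker, map_mul, map_mul, map_mul, map_inv, ha', hy, aa_yy]
    simp
  have hφ := fpf hS π.ker hW (y := y⁻¹) (r := 5) (Or.inr rfl) (by rw [orderOf_inv, hy5])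
  obtain ⟨m, hm⟩ := hφ.commutatorMap_surjective ⟨_, hn⟩
  have hm' : (m : G) / (cj π.ker y⁻¹ m : π.ker) = a' * y * a'⁻¹ * y := congrArg Subtype.val hm
  rw [cj_coe, inv_inv] at hm'
  have hmm : (m : G) * m = 1 := hW m m.2
  have hfm : y⁻¹ * (m : G) * y ∈ π.ker := by
    rw [MonoidHom.mem_ker, map_mul, map_mul, map_inv, (MonoidHom.mem_ker.1 m.2 : π (m : G) = 1)]
    simp
  have hff := hW _ hfm
  have hinv : (y⁻¹ * (m : G) * y)⁻¹ = y⁻¹ * (m : G) * y := inv_eq_of_mul_eq_one_left hff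
  rw [div_eq_mul_inv, hinv] at hm'
  have hminv : (m : G)⁻¹ = m := inv_eq_of_mul_eq_one_left hmm
  set a : G := m * a' with ha_def
  have hpa : π a = aa := by
    rw [ha_def, map_mul, (MonoidHom.mem_ker.1 m.2 : π (m : G) = 1), one_mul, ha']
  have hay : a * y * a⁻¹ = y⁻¹ := by
    have h2 : a' * y * a'⁻¹ = (m : G) * (y⁻¹ * (m : G) * y) * y⁻¹ := by
      rw [hm']; group
    calc a * y * a⁻¹ = (m : G) * (a' * y * a'⁻¹) * (m : G)⁻¹ := by rw [ha_def]; group
      _ = (m : G) * ((m : G) * (y⁻¹ * (m : G) * y) * y⁻¹) * (m : G)⁻¹ := by rw [h2]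
      _ = ((m : G) * m) * y⁻¹ * ((m : G) * (m : G)⁻¹) := by group
      _ = y⁻¹ := by rw [hmm, mul_inv_cancel]; group
  refine ⟨a, hpa, ?_⟩
  have haa : π (a * a) = 1 := by
    rw [map_mul, hpa, aa_sq]
  have hc : Commute (a * a) y := by
    change a * a * y = y * (a * a)
    have h1 : a * y⁻¹ * a⁻¹ = y := by
      have := congrArg (·⁻¹) hay
      simpa [mul_assoc] using this
    calc a * a * y = a * (a * y * a⁻¹) * a := by group
      _ = (a * y⁻¹ * a⁻¹) * (a * a) := by rw [hay]; group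
      _ = y * (a * a) := by rw [h1]
  have hco : Nat.Coprime (orderOf (a * a)) (orderOf y) := by
    rw [hy5]
    exact (orderOf_dvd_two_coprime (Or.inr rfl) (hN _ haa)).symm
  rcases hS.eq_one_of_coprime hc hco with h | h
  · exact h
  · rw [h, orderOf_one] at hy5
    omega

/-- A complement gives a section. -/
theorem section_of_complement (π : G →* SL2) (hπ : Function.Surjective π) (H : Subgroup G)
    (hc : Subgroup.IsComplement' π.ker H) : ∃ σ : SL2 →* G, ∀ g, π (σ g) = g := by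
  have hinj : Function.Injective (π.comp H.subtype) := by
    rw [injective_iff_map_eq_one]
    intro h hh
    have h1 : (h : G) ∈ π.ker := hh
    have := Subgroup.disjoint_def.1 hc.disjoint h1 h.2
    exact Subtype.ext this
  have hsurj : Function.Surjective (π.comp H.subtype) := by
    intro g
    obtain ⟨g', hg'⟩ := hπ g
    obtain ⟨⟨k, h⟩, hk⟩ := hc.2 g'
    have hk' : (k : G) * (h : G) = g' := hk
    refine ⟨h, ?_⟩
    change π (h : G) = g
    rw [← hg', ← hk', map_mul, (MonoidHom.mem_ker.1 k.2 : π (k : G) = 1), one_mul]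
  let e := MulEquiv.ofBijective (π.comp H.subtype) ⟨hinj, hsurj⟩
  refine ⟨H.subtype.comp e.symm.toMonoidHom, fun g => ?_⟩
  have : (π.comp H.subtype) (e.symm g) = g := e.apply_symm_apply g
  exact this

/-- The extension splits. -/
theorem exists_section [Finite G] (hS : IsO G) (π : G →* SL2) (hπ : Function.Surjective π)
    (hN : ∀ n, π n = 1 → n * n = 1) : ∃ σ : SL2 →* G, ∀ g, π (σ g) = g := by
  obtain ⟨a, hpa, haa⟩ := exists_invol hS π hπ hN
  obtain ⟨s, hps⟩ := hπ ss
  have hs3o : orderOf s = 3 := hS.orderOf_lift π (Or.inl rfl) (by rw [hps]; exact orderOf_ss)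
  have hs3 : s ^ 3 = 1 := hs3o ▸ pow_orderOf_eq_one s
  have hs3' : s * s * s = 1 := by simpa [pow_succ, mul_assoc] using hs3
  have hs1 : s ≠ 1 := by
    rintro rfl
    rw [orderOf_one] at hs3o
    omega
  -- the `2`-group above the stabilizer
  let Q : Subgroup G := T0.comap π
  have hQs : ∀ x ∈ Q, s * x * s⁻¹ ∈ Q := by
    intro x hx
    change π (s * x * s⁻¹) ∈ T0
    rw [map_mul, map_mul, map_inv, hps]
    exact ss_T0 _ hx
  have hQ4 : ∀ x ∈ Q, x ^ 4 = 1 := by
    intro x hx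
    have h1 : π (x * x) = 1 := by
      rw [map_mul]
      exact stab_mem _ hx
    have h2 := hN _ h1
    rw [show x ^ 4 = x * x * (x * x) by simp [pow_succ, mul_assoc]]
    exact h2
  have hQfix : ∀ x ∈ Q, s * x = x * s → x = 1 := by
    intro x hx hc
    have hco : Nat.Coprime (orderOf s) (orderOf x) := by
      rw [hs3o]
      exact Nat.Coprime.coprime_dvd_right (orderOf_dvd_of_pow_eq_one (hQ4 x hx)) (by norm_num)
    rcases hS.eq_one_of_coprime hc hco with h | h
    · exact absurd h hs1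
    · exact h
  have haQ : a ∈ Q := by
    change π a ∈ T0
    rw [hpa]
    exact aa_T0
  have hnorm := norm3 Q s hs3' hQs hQfix a haQ
  set b : G := s * a * s⁻¹ with hb_def
  set c : G := s * b * s⁻¹ with hc_def
  have hbb : b * b = 1 := by
    rw [hb_def, show s * a * s⁻¹ * (s * a * s⁻¹) = s * (a * a) * s⁻¹ by group, haa]
    group
  have hcc : c * c = 1 := by
    rw [hc_def, show s * b * s⁻¹ * (s * b * s⁻¹) = s * (b * b) * s⁻¹ by group, hbb]
    group
  have hic : c⁻¹ = c := inv_eq_of_mul_eq_one_left hcc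
  have hc_eq : c = a * b := by
    have h1 : a * b = c⁻¹ := eq_inv_of_mul_eq_one_left hnorm
    rw [h1, hic]
  have hab : a * b = b * a := by
    have h1 : a * b * (a * b) = 1 := by rw [← hc_eq]; exact hcc
    have hia : a⁻¹ = a := inv_eq_of_mul_eq_one_left haa
    have hib : b⁻¹ = b := inv_eq_of_mul_eq_one_left hbb
    have h2 : a * b = (a * b)⁻¹ := eq_inv_of_mul_eq_one_left h1
    rw [mul_inv_rev, hia, hib] at h2
    exact h2
  obtain ⟨E, hE⟩ := klein a b haa hbb hab
  have hpb : π b = ss * aa * ss⁻¹ := by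
    rw [hb_def, map_mul, map_mul, map_inv, hps, hpa]
  have hpc : π c = ss * (ss * aa * ss⁻¹) * ss⁻¹ := by
    rw [hc_def, map_mul, map_mul, map_inv, hps, hpb]
  have hbQ : b ∈ Q := hQs a haQ
  have hcQ : c ∈ Q := hQs b hbQ
  have hEQ : ∀ x ∈ E, π x ∈ T0 := by
    intro x hx
    rcases (hE x).1 hx with rfl | rfl | rfl | h
    · rw [map_one]; exact T0.one_mem
    · exact haQ
    · exact hbQ
    · rw [h, ← hc_eq]; exact hcQ
  have hEs : ∀ x ∈ E, s * x * s⁻¹ ∈ E := by
    intro x hx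
    rcases (hE x).1 hx with h | h | h | h
    · rw [h]
      exact (hE _).2 (Or.inl (by group))
    · rw [h]
      exact (hE _).2 (Or.inr (Or.inr (Or.inl rfl)))
    · rw [h]
      exact (hE _).2 (Or.inr (Or.inr (Or.inr hc_eq)))
    · rw [h]
      refine (hE _).2 (Or.inr (Or.inl ?_))
      have h1 : s * (a * b) * s⁻¹ = b * c := by
        rw [hc_def, hb_def]
        group
      rw [h1, hc_eq, ← mul_assoc, ← hab, mul_assoc, hbb, mul_one]
  obtain ⟨A, hA⟩ := semi E s hs3 hEs
  have hEcov : ∀ t ∈ T0, ∃ e ∈ E, π e = t := by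
    intro t ht
    rcases T0_cases t ht with h | h | h | h
    · exact ⟨1, E.one_mem, by rw [map_one, h]⟩
    · exact ⟨a, (hE _).2 (Or.inr (Or.inl rfl)), by rw [hpa, h]⟩
    · exact ⟨b, (hE _).2 (Or.inr (Or.inr (Or.inl rfl))), by rw [hpb, h]⟩
    · exact ⟨c, (hE _).2 (Or.inr (Or.inr (Or.inr hc_eq))), by rw [hpc, h]⟩
  have hEinj : ∀ e ∈ E, π e = 1 → e = 1 := by
    intro e he h1
    have hne3 : ss * (ss * aa * ss⁻¹) * ss⁻¹ ≠ 1 := aa_conj2_ne
    rcases (hE e).1 he with h | h | h | h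
    · exact h
    · rw [h, hpa] at h1
      exact absurd h1 aa_ne
    · rw [h, hpb] at h1
      exact absurd h1 aa_conj_ne
    · rw [h, ← hc_eq, hpc] at h1
      exact absurd h1 hne3
  let U : Subgroup G := Bo.comap π
  have hKU : π.ker ≤ U := by
    intro x hx
    change π x ∈ Bo
    rw [MonoidHom.mem_ker.1 hx]
    exact Bo.one_mem
  have hAU : A ≤ U := by
    intro x hx
    obtain ⟨e, he, i, rfl⟩ := (hA x).1 hx
    change π (e * s ^ i) ∈ Bo
    rw [map_mul, map_pow, hps]
    exact Bo.mul_mem (T0_le_Bo _ (hEQ e he)) (Bo.pow_mem ss_Bo i)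
  have hAK : A ⊓ π.ker = ⊥ := by
    rw [eq_bot_iff]
    rintro x ⟨hx, hxk⟩
    obtain ⟨e, he, i, rfl⟩ := (hA x).1 hx
    have h1 : π e * ss ^ i = 1 := by
      have h2 : π (e * s ^ i) = 1 := hxk
      rwa [map_mul, map_pow, hps] at h2
    have hssm : ss ^ i = ss ^ (i % 3) := pow_eq_pow_mod i ss_cube
    have hsm : s ^ i = s ^ (i % 3) := pow_eq_pow_mod i hs3
    rw [hssm] at h1
    rw [Subgroup.mem_bot, hsm]
    have hlt : i % 3 < 3 := Nat.mod_lt _ (by norm_num)
    interval_cases h : i % 3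
    · rw [pow_zero, mul_one] at h1 ⊢
      exact hEinj e he h1
    · rw [pow_one] at h1
      exact absurd h1 (T0_ss1 _ (hEQ e he))
    · rw [pow_two] at h1
      exact absurd h1 (T0_ss2 _ (hEQ e he))
  have hcov : ∀ t ∈ Bo, ∃ x ∈ A, π x = t := by
    intro t ht
    have hs1A : s ∈ A := (hA s).2 ⟨1, E.one_mem, 1, by simp⟩
    rcases Bo_cases t ht with h | h | h
    · obtain ⟨e, he, hpe⟩ := hEcov t h
      exact ⟨e, (hA e).2 ⟨e, he, 0, by simp⟩, hpe⟩
    · obtain ⟨e, he, hpe⟩ := hEcov _ h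
      refine ⟨e * s, (hA _).2 ⟨e, he, 1, by simp⟩, ?_⟩
      rw [map_mul, hpe, hps]
      group
    · obtain ⟨e, he, hpe⟩ := hEcov _ h
      refine ⟨e * s⁻¹, A.mul_mem ((hA e).2 ⟨e, he, 0, by simp⟩) (A.inv_mem hs1A), ?_⟩
      rw [map_mul, map_inv, hpe, hps]
      group
  have hKA : π.ker ⊔ A = U := by
    apply le_antisymm (sup_le hKU hAU)
    intro u hu
    obtain ⟨x, hx, hpx⟩ := hcov (π u) hu
    have h1 : u * x⁻¹ ∈ π.ker := by
      rw [MonoidHom.mem_ker, map_mul, map_inv, hpx]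
      group
    have := Subgroup.mul_mem_sup h1 hx
    rwa [inv_mul_cancel_right] at this
  haveI hcomm : IsMulCommutative π.ker := by
    refine ⟨⟨fun x y => ?_⟩⟩
    have hWt : ∀ w : π.ker, w * w = 1 := fun w => Subtype.ext (hN w w.2)
    exact Cfsg.Agent.Lib.Ord5.Module.comm_of_exp_two hWt x y
  have hp : IsPGroup 2 π.ker := by
    intro x
    refine ⟨1, ?_⟩
    rw [pow_one, pow_two]
    exact Subtype.ext (hN x x.2)
  obtain ⟨k, hk⟩ := hp.exists_card_eq
  have hcop : (Nat.card π.ker).Coprime U.index := by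
    rw [hk, Subgroup.index_comap_of_surjective _ hπ, index_bo]
    exact Nat.Coprime.pow_left _ (by norm_num)
  obtain ⟨H, hH⟩ := Cfsg.Agent.S0051.result π.ker U hKU hcop A hAU hAK hKA
  exact section_of_complement π hπ H hH

end Cfsg.Agent.Lib.Crit5.Split
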